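import Cfsg.Agent.H264.U4.Dat

/-!
# S5210, `q = 3`: the five groups `Co₂`, `U₆(2)`, `U₆(2):2`, `McL`, `McL:2` as subgroups of `Co0` (helper264)

`GA = Co₂`, `GB = U₆(2)`, `GB2 = U₆(2):2`, `GC = McL`, `GC2 = McL:2`; `pA : M6 →* GA` etc. are the restrictions of `ph1`
(`A`, `B`, `B2`) and `ph2` (`C`, `C2`).
-/

set_option autoImplicit false
set_option maxRecDepth 20000
set_option linter.style.longLine false

namespace Cfsg.Agent.H264.U4

open Cfsg Cfsg.Agent.SporadicStructure.Co0Matrix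
open Cfsg.Agent.SporadicStructure.Co2RankThree (dt card_stab_min)
open M6

/-- `Co₂` -/
noncomputable def GA : Subgroup Co0 := MulAction.stabilizer Co0 f0

theorem mem_GA {g : Co0} : g ∈ GA ↔ g.1 f0 = f0 := Iff.rfl

/-- the elements fixing `v` and `w` -/
def Fx (v w : leechLattice) : Subgroup Co0 := MulAction.stabilizer Co0 v ⊓ MulAction.stabilizer Co0 w

theorem mem_Fx {v w : leechLattice} {g : Co0} : g ∈ Fx v w ↔ g.1 v = v ∧ g.1 w = w := Iff.rfl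

theorem mul_ap (g h : Co0) (v : leechLattice) : (g * h).1 v = g.1 (h.1 v) := rfl

theorem inv_ap {g : Co0} {v w : leechLattice} (h : g.1 v = w) : (g⁻¹).1 w = v := by
  rw [← h]
  exact congrArg (fun x : Co0 => x.1 v) (inv_mul_cancel g)

/-- the elements fixing or exchanging `v` and `w` -/
def Sw (v w : leechLattice) : Subgroup Co0 where
  carrier := {g | (g.1 v = v ∧ g.1 w = w) ∨ (g.1 v = w ∧ g.1 w = v)}
  one_mem' := Or.inl ⟨rfl, rfl⟩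
  mul_mem' := by
    rintro g h (⟨a, b⟩ | ⟨a, b⟩) (⟨c, d⟩ | ⟨c, d⟩)
    · exact Or.inl ⟨by rw [mul_ap, c, a], by rw [mul_ap, d, b]⟩
    · exact Or.inr ⟨by rw [mul_ap, c, b], by rw [mul_ap, d, a]⟩
    · exact Or.inr ⟨by rw [mul_ap, c, a], by rw [mul_ap, d, b]⟩
    · exact Or.inl ⟨by rw [mul_ap, c, b], by rw [mul_ap, d, a]⟩
  inv_mem' := by
    rintro g (⟨a, b⟩ | ⟨a, b⟩)
    · exact Or.inl ⟨inv_ap a, inv_ap b⟩
    · exact Or.inr ⟨inv_ap b, inv_ap a⟩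

theorem mem_Sw {v w : leechLattice} {g : Co0} :
    g ∈ Sw v w ↔ (g.1 v = v ∧ g.1 w = w) ∨ (g.1 v = w ∧ g.1 w = v) := Iff.rfl

/-- `U₆(2)` -/
noncomputable def GB : Subgroup Co0 := GA ⊓ Fx f1 f7
/-- `U₆(2):2` -/
noncomputable def GB2 : Subgroup Co0 := GA ⊓ Sw f1 f7
/-- `McL` -/
noncomputable def GC : Subgroup Co0 := Fx f0 f10
/-- `McL:2` -/
noncomputable def GC2 : Subgroup Co0 := Sw f0 f10

theorem GB_le_GB2 : GB ≤ GB2 := fun _ hg => ⟨hg.1, Or.inl hg.2⟩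
theorem GC_le_GC2 : GC ≤ GC2 := fun _ hg => Or.inl hg
theorem GB2_le_GA : GB2 ≤ GA := fun _ hg => hg.1
theorem GB_le_GA : GB ≤ GA := fun _ hg => hg.1
theorem GC_le_GA : GC ≤ GA := fun _ hg => hg.1

theorem dt_f0 : dt f0 f0 = 32 := by
  unfold dt
  rw [f0_eq]
  decide +kernel

theorem card_GA : Nat.card GA = 42305421312000 := card_stab_min f0 dt_f0

instance finite_Co0 : Finite Co0 :=
  Nat.finite_of_card_ne_zero (by rw [Cfsg.Agent.S1582.card_co0]; norm_num)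

theorem ne_of_list {v w : leechLattice} {l l' : List ℤ} (hv : (v : GolayPt → ℤ) = vec l)
    (hw : (w : GolayPt → ℤ) = vec l') (h : vec l (some 0) ≠ vec l' (some 0)) : v ≠ w := by
  rintro rfl
  rw [hv] at hw
  exact h (congrFun hw (some 0))

theorem f1_ne_f7 : f1 ≠ f7 := ne_of_list f1_eq f7_eq (by decide +kernel)

theorem f0_ne_f10 : f0 ≠ f10 := by
  intro h
  have h1 : vec f0L (some 1) = vec f10L (some 1) := by rw [← f0_eq, ← f10_eq, h]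
  exact absurd h1 (by decide +kernel)

/-! ### Index two -/

theorem relIndex_Fx {v w : leechLattice} (hvw : v ≠ w) {a : Co0} (h1 : a.1 v = w) (h2 : a.1 w = v) (H : Subgroup Co0)
    (ha : a ∈ H) : (H ⊓ Fx v w).relIndex (H ⊓ Sw v w) = 2 := by
  rw [Subgroup.relIndex_eq_two_iff]
  refine ⟨a, ⟨ha, Or.inr ⟨h1, h2⟩⟩, ?_⟩
  rintro b ⟨hbH, ⟨h3, h4⟩ | ⟨h3, h4⟩⟩
  · refine Or.inr ⟨⟨hbH, h3, h4⟩, ?_⟩
    rintro ⟨-, h5, -⟩
    have h6 : (b * a).1 v = v := h5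
    rw [mul_ap, h1, h4] at h6
    exact hvw h6.symm
  · refine Or.inl ⟨⟨H.mul_mem hbH ha, ?_, ?_⟩, ?_⟩
    · show (b * a).1 v = v
      rw [mul_ap, h1, h4]
    · show (b * a).1 w = w
      rw [mul_ap, h2, h3]
    · rintro ⟨-, h5, -⟩
      have h6 : b.1 v = v := h5
      rw [h3] at h6
      exact hvw h6.symm

theorem relIndex_GB : GB.relIndex GB2 = 2 := relIndex_Fx f1_ne_f7 g4_f1 g4_f7 GA g4_f0

theorem relIndex_GC : GC.relIndex GC2 = 2 := by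
  have h := relIndex_Fx f0_ne_f10 k3_f0 k3_f10 ⊤ trivial
  rwa [top_inf_eq, top_inf_eq] at h

/-! ### The embeddings -/

theorem mem_A (x : M6) : ph1 x ∈ GA := ph_f0 _ _ _ x
theorem mem_B (x : M6) : ph1 x ∈ GB := ⟨ph_f0 _ _ _ x, ph_f1 _ _ _ x, ph_f7 _ _ _ x⟩
theorem mem_B2 (x : M6) : ph1 x ∈ GB2 := GB_le_GB2 (mem_B x)
theorem mem_C (x : M6) : ph2 x ∈ GC := ⟨ph_f0 _ _ _ x, ph_f10 _ _ _ x⟩
theorem mem_C2 (x : M6) : ph2 x ∈ GC2 := GC_le_GC2 (mem_C x)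

/-- `S → Co₂` -/
noncomputable def pA : M6 →* GA := ph1.codRestrict GA mem_A
/-- `S → U₆(2)` -/
noncomputable def pB : M6 →* GB := ph1.codRestrict GB mem_B
/-- `S → U₆(2):2` -/
noncomputable def pB2 : M6 →* GB2 := ph1.codRestrict GB2 mem_B2
/-- `S → McL` -/
noncomputable def pC : M6 →* GC := ph2.codRestrict GC mem_C
/-- `S → McL:2` -/
noncomputable def pC2 : M6 →* GC2 := ph2.codRestrict GC2 mem_C2

@[simp] theorem pA_coe (x : M6) : ((pA x : GA) : Co0) = ph1 x := rfl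
@[simp] theorem pB_coe (x : M6) : ((pB x : GB) : Co0) = ph1 x := rfl
@[simp] theorem pB2_coe (x : M6) : ((pB2 x : GB2) : Co0) = ph1 x := rfl
@[simp] theorem pC_coe (x : M6) : ((pC x : GC) : Co0) = ph2 x := rfl
@[simp] theorem pC2_coe (x : M6) : ((pC2 x : GC2) : Co0) = ph2 x := rfl

theorem cod_injective {G : Subgroup Co0} {φ : M6 →* Co0} (hφ : Function.Injective φ) (h : ∀ x, φ x ∈ G) :
    Function.Injective (φ.codRestrict G h) := fun _ _ hxy => hφ (congrArg Subtype.val hxy)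

theorem pA_injective : Function.Injective pA := cod_injective (ph_injective _ _ _) _
theorem pB_injective : Function.Injective pB := cod_injective (ph_injective _ _ _) _
theorem pB2_injective : Function.Injective pB2 := cod_injective (ph_injective _ _ _) _
theorem pC_injective : Function.Injective pC := cod_injective (ph_injective _ _ _) _
theorem pC2_injective : Function.Injective pC2 := cod_injective (ph_injective _ _ _) _

theorem card_range {φ : M6 →* Co0} (h : Function.Injective φ) : Nat.card φ.range = 729 := by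
  rw [← Nat.card_congr (MonoidHom.ofInjective h).toEquiv, card_M6]; norm_num

theorem index_cod {G : Subgroup Co0} {φ : M6 →* Co0} (h : ∀ x, φ x ∈ G) :
    (φ.codRestrict G h).range.index = φ.range.relIndex G := by
  rw [Subgroup.relIndex]
  congr 1
  ext y
  constructor
  · rintro ⟨x, rfl⟩
    exact ⟨x, rfl⟩
  · rintro ⟨x, hx⟩
    exact ⟨x, Subtype.ext hx⟩

theorem relIndex_GA {φ : M6 →* Co0} (hφ : Function.Injective φ) (h : ∀ x, φ x ∈ GA) : φ.range.relIndex GA = 58032128000 := by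
  have hle : φ.range ≤ GA := by rintro _ ⟨x, rfl⟩; exact h x
  have h1 : Nat.card (φ.range.subgroupOf GA) * (φ.range.subgroupOf GA).index = Nat.card GA :=
    Subgroup.card_mul_index _
  rw [Nat.card_congr (Subgroup.subgroupOfEquivOfLe hle).toEquiv, card_GA, card_range hφ] at h1
  show (φ.range.subgroupOf GA).index = _
  omega

theorem not_dvd {G : Subgroup Co0} {φ : M6 →* Co0} (hφ : Function.Injective φ) (h : ∀ x, φ x ∈ G) (hG : G ≤ GA) :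
    ¬ 3 ∣ φ.range.relIndex G := by
  intro h3
  have hle : φ.range ≤ G := by rintro _ ⟨x, rfl⟩; exact h x
  have h1 := Subgroup.relIndex_mul_relIndex φ.range G GA hle hG
  rw [relIndex_GA hφ fun x => hG (h x)] at h1
  have h2 : 3 ∣ 58032128000 := h1 ▸ (h3.mul_right _)
  omega

theorem index_A : ¬ 3 ∣ pA.range.index := by
  rw [pA, index_cod]; exact not_dvd (ph_injective _ _ _) mem_A le_rfl

theorem index_B : ¬ 3 ∣ pB.range.index := by
  rw [pB, index_cod]; exact not_dvd (ph_injective _ _ _) mem_B GB_le_GA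

theorem index_B2 : ¬ 3 ∣ pB2.range.index := by
  rw [pB2, index_cod]; exact not_dvd (ph_injective _ _ _) mem_B2 GB2_le_GA

theorem index_C : ¬ 3 ∣ pC.range.index := by
  rw [pC, index_cod]; exact not_dvd (ph_injective _ _ _) mem_C GC_le_GA

theorem index_C2 : ¬ 3 ∣ pC2.range.index := by
  rw [pC2, index_cod]
  intro h3
  have hle : ph2.range ≤ GC := by rintro _ ⟨x, rfl⟩; exact mem_C x
  have h1 := Subgroup.relIndex_mul_relIndex ph2.range GC GC2 hle GC_le_GC2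
  rw [relIndex_GC] at h1
  rw [← h1] at h3
  rcases (Nat.Prime.dvd_mul Nat.prime_three).1 h3 with h | h
  · exact not_dvd (ph_injective _ _ _) mem_C GC_le_GA h
  · omega

/-! ### The realised elements inside the groups -/

/-- `f` is induced by an element of `G` on the elements satisfying `P` -/
def Rz {G : Type*} [Group G] (φ : M6 →* G) (P : M6 → Prop) (f : M6 → M6) : Prop :=
  ∃ g : G, ∀ x, P x → φ (f x) = g * φ x * g⁻¹

theorem rz_of {G : Subgroup Co0} {φ : M6 →* Co0} {P : M6 → Prop} {f : M6 → M6} {g : Co0} (hφ : ∀ x, φ x ∈ G)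
    (hg : g ∈ G) (h : ∀ x, P x → φ (f x) = g * φ x * g⁻¹) : Rz (φ.codRestrict G hφ) P f :=
  ⟨⟨g, hg⟩, fun x hx => Subtype.ext (h x hx)⟩

theorem A_t1 : Rz pA (fun _ => True) (tor 1 1 1 1) := rz_of mem_A g1_f0 fun x _ => r1 x
theorem A_t2 : Rz pA (fun _ => True) (tor 1 0 1 (-1)) := rz_of mem_A g2_f0 fun x _ => r2 x
theorem A_t3 : Rz pA (fun _ => True) (tor 0 1 (-1) 1) := rz_of mem_A g3_f0 fun x _ => r3 x
theorem A_t4 : Rz pA (fun _ => True) (tor 1 0 (-1) 1) := rz_of mem_A g4_f0 fun x _ => r4 x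
theorem A_v : Rz pA (· ∈ MV) wv := rz_of mem_A g5_f0 fun _ hx => r5 hx
theorem A_w0 : Rz pA (· ∈ MQ) (wk 0 0) := rz_of mem_A g6_f0 fun _ hx => r6 hx
theorem A_w1 : Rz pA (· ∈ MQ) (wk 1 0) := rz_of mem_A g7_f0 fun _ hx => r7 hx

theorem B_t2 : Rz pB (fun _ => True) (tor 1 0 1 (-1)) := rz_of mem_B ⟨g2_f0, g2_f1, g2_f7⟩ fun x _ => r2 x
theorem B_t3 : Rz pB (fun _ => True) (tor 0 1 (-1) 1) := rz_of mem_B ⟨g3_f0, g3_f1, g3_f7⟩ fun x _ => r3 x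
theorem B_v : Rz pB (· ∈ MV) wv := rz_of mem_B ⟨g5_f0, g5_f1, g5_f7⟩ fun _ hx => r5 hx
theorem B_w0 : Rz pB (· ∈ MQ) (wk 0 0) := rz_of mem_B ⟨g6_f0, g6_f1, g6_f7⟩ fun _ hx => r6 hx
theorem B_w1 : Rz pB (· ∈ MQ) (wk 1 0) := rz_of mem_B ⟨g7_f0, g7_f1, g7_f7⟩ fun _ hx => r7 hx

theorem B2_t2 : Rz pB2 (fun _ => True) (tor 1 0 1 (-1)) := rz_of mem_B2 ⟨g2_f0, Or.inl ⟨g2_f1, g2_f7⟩⟩ fun x _ => r2 x
theorem B2_t3 : Rz pB2 (fun _ => True) (tor 0 1 (-1) 1) := rz_of mem_B2 ⟨g3_f0, Or.inl ⟨g3_f1, g3_f7⟩⟩ fun x _ => r3 x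
theorem B2_t4 : Rz pB2 (fun _ => True) (tor 1 0 (-1) 1) := rz_of mem_B2 ⟨g4_f0, Or.inr ⟨g4_f1, g4_f7⟩⟩ fun x _ => r4 x
theorem B2_v : Rz pB2 (· ∈ MV) wv := rz_of mem_B2 ⟨g5_f0, Or.inl ⟨g5_f1, g5_f7⟩⟩ fun _ hx => r5 hx
theorem B2_w0 : Rz pB2 (· ∈ MQ) (wk 0 0) := rz_of mem_B2 ⟨g6_f0, Or.inl ⟨g6_f1, g6_f7⟩⟩ fun _ hx => r6 hx
theorem B2_w1 : Rz pB2 (· ∈ MQ) (wk 1 0) := rz_of mem_B2 ⟨g7_f0, Or.inl ⟨g7_f1, g7_f7⟩⟩ fun _ hx => r7 hx

theorem C_t1 : Rz pC (fun _ => True) (tor 1 1 (-1) (-1)) := rz_of mem_C ⟨k1_f0, k1_f10⟩ fun x _ => q1 x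
theorem C_t2 : Rz pC (fun _ => True) (tor 0 1 (-1) 1) := rz_of mem_C ⟨k2_f0, k2_f10⟩ fun x _ => q2 x
theorem C_v : Rz pC (· ∈ MV) wv := rz_of mem_C ⟨k4_f0, k4_f10⟩ fun _ hx => q4 hx
theorem C_w1 : Rz pC (· ∈ MQ) (wk 1 1) := rz_of mem_C ⟨k5_f0, k5_f10⟩ fun _ hx => q5 hx
theorem C_w2 : Rz pC (· ∈ MQ) (wk (-1) (-1)) := rz_of mem_C ⟨k6_f0, k6_f10⟩ fun _ hx => q6 hx

theorem C2_t1 : Rz pC2 (fun _ => True) (tor 1 1 (-1) (-1)) := rz_of mem_C2 (Or.inl ⟨k1_f0, k1_f10⟩) fun x _ => q1 x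
theorem C2_t2 : Rz pC2 (fun _ => True) (tor 0 1 (-1) 1) := rz_of mem_C2 (Or.inl ⟨k2_f0, k2_f10⟩) fun x _ => q2 x
theorem C2_t3 : Rz pC2 (fun _ => True) (tor 1 0 (-1) 1) := rz_of mem_C2 (Or.inr ⟨k3_f0, k3_f10⟩) fun x _ => q3 x
theorem C2_v : Rz pC2 (· ∈ MV) wv := rz_of mem_C2 (Or.inl ⟨k4_f0, k4_f10⟩) fun _ hx => q4 hx
theorem C2_w1 : Rz pC2 (· ∈ MQ) (wk 1 1) := rz_of mem_C2 (Or.inl ⟨k5_f0, k5_f10⟩) fun _ hx => q5 hx
theorem C2_w2 : Rz pC2 (· ∈ MQ) (wk (-1) (-1)) := rz_of mem_C2 (Or.inl ⟨k6_f0, k6_f10⟩) fun _ hx => q6 hx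

end Cfsg.Agent.H264.U4
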