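import Cfsg.Agent.H956.Co1P.Dat

/-!
# S5210, `q = 3`: the model `M6` of `PG K`, `|K| = 9`, over `F₃` and its embeddings in `Co0` (helper264)

`K = F₃(i)`, `r = r0 + r1 i`, `b = b0 + b1 i`; the product is exactly that of `H776.P4.PG`.
-/

set_option autoImplicit false
set_option maxRecDepth 20000
set_option linter.style.longLine false

namespace Cfsg.Agent.H264.U4

open Cfsg Cfsg.Agent.LThreeCo1.Ev Cfsg.Agent.SporadicStructure.Co0Matrix Cfsg.Agent.CoOneType.CoEval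
open Cfsg.Agent.H776.Co Cfsg.Agent.H956.Co1P

/-- The model. -/
@[ext] structure M6 where
  r0 : ZMod 3
  r1 : ZMod 3
  a : ZMod 3
  b0 : ZMod 3
  b1 : ZMod 3
  c : ZMod 3
deriving DecidableEq

namespace M6

instance : Mul M6 := ⟨fun x y =>
  ⟨x.r0 + y.r0, x.r1 + y.r1, x.a + y.a + 2 * (x.r0 * y.b0 + x.r1 * y.b1) + (x.r0 ^ 2 + x.r1 ^ 2) * y.c,
    x.b0 + y.b0 + x.r0 * y.c, x.b1 + y.b1 + x.r1 * y.c, x.c + y.c⟩⟩
instance : One M6 := ⟨⟨0, 0, 0, 0, 0, 0⟩⟩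
instance : Inv M6 := ⟨fun x =>
  ⟨-x.r0, -x.r1, -x.a + 2 * (x.r0 * x.b0 + x.r1 * x.b1) - (x.r0 ^ 2 + x.r1 ^ 2) * x.c,
    -x.b0 + x.r0 * x.c, -x.b1 + x.r1 * x.c, -x.c⟩⟩

@[simp] theorem mul_r0 (x y : M6) : (x * y).r0 = x.r0 + y.r0 := rfl
@[simp] theorem mul_r1 (x y : M6) : (x * y).r1 = x.r1 + y.r1 := rfl
@[simp] theorem mul_a (x y : M6) : (x * y).a =
    x.a + y.a + 2 * (x.r0 * y.b0 + x.r1 * y.b1) + (x.r0 ^ 2 + x.r1 ^ 2) * y.c := rfl
@[simp] theorem mul_b0 (x y : M6) : (x * y).b0 = x.b0 + y.b0 + x.r0 * y.c := rfl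
@[simp] theorem mul_b1 (x y : M6) : (x * y).b1 = x.b1 + y.b1 + x.r1 * y.c := rfl
@[simp] theorem mul_c (x y : M6) : (x * y).c = x.c + y.c := rfl
@[simp] theorem one_r0 : (1 : M6).r0 = 0 := rfl
@[simp] theorem one_r1 : (1 : M6).r1 = 0 := rfl
@[simp] theorem one_a : (1 : M6).a = 0 := rfl
@[simp] theorem one_b0 : (1 : M6).b0 = 0 := rfl
@[simp] theorem one_b1 : (1 : M6).b1 = 0 := rfl
@[simp] theorem one_c : (1 : M6).c = 0 := rfl
@[simp] theorem inv_r0 (x : M6) : (x⁻¹).r0 = -x.r0 := rfl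
@[simp] theorem inv_r1 (x : M6) : (x⁻¹).r1 = -x.r1 := rfl
@[simp] theorem inv_a (x : M6) : (x⁻¹).a =
    -x.a + 2 * (x.r0 * x.b0 + x.r1 * x.b1) - (x.r0 ^ 2 + x.r1 ^ 2) * x.c := rfl
@[simp] theorem inv_b0 (x : M6) : (x⁻¹).b0 = -x.b0 + x.r0 * x.c := rfl
@[simp] theorem inv_b1 (x : M6) : (x⁻¹).b1 = -x.b1 + x.r1 * x.c := rfl
@[simp] theorem inv_c (x : M6) : (x⁻¹).c = -x.c := rfl

instance : Group M6 where
  mul_assoc x y z := by ext <;> simp <;> ring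
  one_mul x := by ext <;> simp
  mul_one x := by ext <;> simp
  inv_mul_cancel x := by ext <;> simp; ring

/-- coordinates -/
def equivTuple : M6 ≃ (ZMod 3 × ZMod 3 × ZMod 3 × ZMod 3 × ZMod 3 × ZMod 3) where
  toFun x := (x.r0, x.r1, x.a, x.b0, x.b1, x.c)
  invFun t := ⟨t.1, t.2.1, t.2.2.1, t.2.2.2.1, t.2.2.2.2.1, t.2.2.2.2.2⟩
  left_inv _ := rfl
  right_inv _ := rfl

instance : Fintype M6 := Fintype.ofEquiv _ equivTuple.symm

theorem card_M6 : Nat.card M6 = 3 ^ 6 := by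
  rw [Nat.card_congr equivTuple]
  simp only [Nat.card_prod, Nat.card_zmod]
  norm_num

/-- the root elements: `0 = r0`, `1 = r1`, `2 = a`, `3 = b0`, `4 = b1`, `5 = c` -/
def rt (i : Fin 6) (t : ZMod 3) : M6 :=
  match i with
  | 0 => ⟨t, 0, 0, 0, 0, 0⟩
  | 1 => ⟨0, t, 0, 0, 0, 0⟩
  | 2 => ⟨0, 0, t, 0, 0, 0⟩
  | 3 => ⟨0, 0, 0, t, 0, 0⟩
  | 4 => ⟨0, 0, 0, 0, t, 0⟩
  | 5 => ⟨0, 0, 0, 0, 0, t⟩

/-- the coordinates -/
def co (i : Fin 6) (x : M6) : ZMod 3 :=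
  match i with
  | 0 => x.r0
  | 1 => x.r1
  | 2 => x.a
  | 3 => x.b0
  | 4 => x.b1
  | 5 => x.c

theorem rt_zero (i : Fin 6) : rt i 0 = 1 := by fin_cases i <;> rfl

theorem rt_two (i : Fin 6) : rt i 2 = rt i 1 * rt i 1 := by fin_cases i <;> decide

theorem rt_mem {R : Subgroup M6} {i : Fin 6} (t : ZMod 3) (h : t = 0 ∨ rt i 1 ∈ R) : rt i t ∈ R := by
  rcases h with rfl | h
  · rw [rt_zero]; exact R.one_mem
  · fin_cases t
    · show rt i 0 ∈ R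
      rw [rt_zero]; exact R.one_mem
    · exact h
    · show rt i 2 ∈ R
      rw [rt_two]; exact R.mul_mem h h

theorem decomp (x : M6) : x = rt 2 x.a * rt 3 x.b0 * rt 4 x.b1 * rt 5 x.c * rt 1 x.r1 * rt 0 x.r0 := by
  ext <;> simp [rt]

theorem mem_of_rt {R : Subgroup M6} {x : M6} (h : ∀ i, co i x = 0 ∨ rt i 1 ∈ R) : x ∈ R := by
  rw [decomp x]
  exact R.mul_mem (R.mul_mem (R.mul_mem (R.mul_mem (R.mul_mem (rt_mem _ (h 2)) (rt_mem _ (h 3))) (rt_mem _ (h 4)))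
    (rt_mem _ (h 5))) (rt_mem _ (h 1))) (rt_mem _ (h 0))

variable {G : Type*} [Group G]

/-- the subgroup on which `f` is induced by `g` -/
def agr (φ : M6 →* G) (R : Subgroup M6) (f : M6 → M6) (hf : ∀ x ∈ R, ∀ y ∈ R, f (x * y) = f x * f y) (g : G) : Subgroup M6 where
  carrier := {x | x ∈ R ∧ φ (f x) = g * φ x * g⁻¹}
  one_mem' := by
    refine ⟨R.one_mem, ?_⟩
    have h1 : f 1 = 1 := by
      have h := hf 1 R.one_mem 1 R.one_mem
      rw [mul_one] at h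
      exact mul_eq_left.mp h.symm
    rw [h1, map_one]; group
  mul_mem' := by
    rintro x y ⟨hx, hx'⟩ ⟨hy, hy'⟩
    refine ⟨R.mul_mem hx hy, ?_⟩
    rw [hf x hx y hy, map_mul, map_mul, hx', hy']
    group
  inv_mem' := by
    rintro x ⟨hx, hx'⟩
    refine ⟨R.inv_mem hx, ?_⟩
    have h1 : f 1 = 1 := by
      have h := hf 1 R.one_mem 1 R.one_mem
      rw [mul_one] at h
      exact mul_eq_left.mp h.symm
    have h2 : f x⁻¹ = (f x)⁻¹ := by
      have h := hf x⁻¹ (R.inv_mem hx) x hx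
      rw [inv_mul_cancel, h1] at h
      exact eq_inv_of_mul_eq_one_left h.symm
    rw [h2, map_inv, hx', map_inv]
    group

theorem agree {φ : M6 →* G} {R : Subgroup M6} {f : M6 → M6} (hf : ∀ x ∈ R, ∀ y ∈ R, f (x * y) = f x * f y) (g : G)
    (hg : ∀ i, rt i 1 ∈ R → φ (f (rt i 1)) = g * φ (rt i 1) * g⁻¹) {x : M6}
    (h : ∀ i, co i x = 0 ∨ rt i 1 ∈ R) : φ (f x) = g * φ x * g⁻¹ := by
  have : x ∈ agr φ R f hf g := mem_of_rt fun i => (h i).imp_right fun h => ⟨h, hg i h⟩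
  exact this.2

/-- the embedding in the Sylow 3-subgroup of `Co₁` -/
def io : M6 →* P where
  toFun x := ⟨x.r0, 0, x.r1, x.a, x.b0, x.c, x.b1, 0, x.c⟩
  map_one' := rfl
  map_mul' x y := by ext <;> simp <;> ring

@[simp] theorem io_apply (x : M6) : io x = ⟨x.r0, 0, x.r1, x.a, x.b0, x.c, x.b1, 0, x.c⟩ := rfl

theorem io_injective : Function.Injective io := by
  intro x y h
  simp only [io_apply, P.mk.injEq] at h
  ext
  · exact h.1
  · exact h.2.2.1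
  · exact h.2.2.2.1
  · exact h.2.2.2.2.1
  · exact h.2.2.2.2.2.2.1
  · exact h.2.2.2.2.2.1

theorem three : (3 : ZMod 3) = 0 := by decide

/-- `tor(s, l, τ)`: `s = s0 + s1 i`, `l = ±1`, `τ = 1` (`g = 1`) or the conjugation (`g = -1`) -/
def tor (s0 s1 l g : ZMod 3) (x : M6) : M6 :=
  ⟨s0 * x.r0 - s1 * (g * x.r1), s0 * (g * x.r1) + s1 * x.r0, (s0 ^ 2 + s1 ^ 2) * l * x.a,
    l * (s0 * x.b0 - s1 * (g * x.b1)), l * (s0 * (g * x.b1) + s1 * x.b0), l * x.c⟩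

theorem tor_mul {s0 s1 l g : ZMod 3} (hg : g ^ 2 = 1) (x y : M6) :
    tor s0 s1 l g (x * y) = tor s0 s1 l g x * tor s0 s1 l g y := by
  ext <;> simp only [tor, mul_r0, mul_r1, mul_a, mul_b0, mul_b1, mul_c]
  · ring
  · ring
  · linear_combination (-2 * l * s0 ^ 2 * x.r1 * y.b1 - 2 * l * s1 ^ 2 * x.r1 * y.b1 - l * s0 ^ 2 * x.r1 ^ 2 * y.c
      - l * s1 ^ 2 * x.r1 ^ 2 * y.c) * hg
  · ring
  · ring
  · ring

/-- the twist `θ_{s c} ∘ ε_κ`, `κ = k0 + k1 i` -/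
def be (s k0 k1 : ZMod 3) : M6 →* M6 where
  toFun x := ⟨x.r0, x.r1, x.a + s * x.c - 2 * (k0 * (x.r0 ^ 2 - x.r1 ^ 2) + 2 * k1 * (x.r0 * x.r1)),
    x.b0 + (k0 * x.r0 + k1 * x.r1), x.b1 + (k1 * x.r0 - k0 * x.r1), x.c⟩
  map_one' := by ext <;> simp
  map_mul' x y := by
    ext <;> simp only [mul_r0, mul_r1, mul_a, mul_b0, mul_b1, mul_c]
    · linear_combination (-2 * (k0 * (x.r0 * y.r0 - x.r1 * y.r1) + k1 * (x.r0 * y.r1 + x.r1 * y.r0))) * three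
    · ring
    · ring

theorem be_apply (s k0 k1 : ZMod 3) (x : M6) : be s k0 k1 x =
    ⟨x.r0, x.r1, x.a + s * x.c - 2 * (k0 * (x.r0 ^ 2 - x.r1 ^ 2) + 2 * k1 * (x.r0 * x.r1)),
    x.b0 + (k0 * x.r0 + k1 * x.r1), x.b1 + (k1 * x.r0 - k0 * x.r1), x.c⟩ := rfl

theorem be_injective (s k0 k1 : ZMod 3) : Function.Injective (be s k0 k1) := by
  intro x y h
  simp only [be_apply, M6.mk.injEq] at h
  obtain ⟨h1, h2, h3, h4, h5, h6⟩ := h
  rw [h1, h2, h6] at h3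
  rw [h1, h2] at h4 h5
  ext
  · exact h1
  · exact h2
  · linear_combination h3
  · linear_combination h4
  · linear_combination h5
  · exact h6

/-- `ε_κ` -/
def ep (k0 k1 : ZMod 3) (x : M6) : M6 := be 0 k0 k1 x

/-- the Weyl element on `V` (`r = 0`) -/
def wv (x : M6) : M6 := ⟨0, 0, x.c, -x.b0, x.b1, x.a⟩

/-- the Weyl element on `Q` (`c = 0`) -/
def wq (x : M6) : M6 := ⟨x.b0, x.b1, x.a - 2 * (x.r0 * x.b0 + x.r1 * x.b1), -x.r0, -x.r1, x.c⟩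

/-- `W_κ = ε_κ W ε_κ⁻¹` -/
def wk (k0 k1 : ZMod 3) (x : M6) : M6 := ep k0 k1 (wq (ep (-k0) (-k1) x))

/-- `V` -/
def MV : Subgroup M6 where
  carrier := {x | x.r0 = 0 ∧ x.r1 = 0}
  one_mem' := ⟨rfl, rfl⟩
  mul_mem' := by rintro x y ⟨h1, h2⟩ ⟨k1, k2⟩; exact ⟨by simp [h1, k1], by simp [h2, k2]⟩
  inv_mem' := by rintro x ⟨h1, h2⟩; exact ⟨by simp [h1], by simp [h2]⟩

/-- `Q` -/
def MQ : Subgroup M6 where
  carrier := {x | x.c = 0}
  one_mem' := rfl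
  mul_mem' := by
    intro x y h k
    have h' : x.c = 0 := h
    have k' : y.c = 0 := k
    show (x * y).c = 0
    simp [h', k']
  inv_mem' := by
    intro x h
    have h' : x.c = 0 := h
    show (x⁻¹).c = 0
    simp [h']

theorem wv_mul {x y : M6} (hx : x ∈ MV) (hy : y ∈ MV) : wv (x * y) = wv x * wv y := by
  obtain ⟨h1, h2⟩ := hx
  obtain ⟨k1, k2⟩ := hy
  ext <;> simp [wv, h1, h2] <;> ring

theorem wq_mul {x y : M6} (hx : x ∈ MQ) (hy : y ∈ MQ) : wq (x * y) = wq x * wq y := by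
  have h : x.c = 0 := hx
  have k : y.c = 0 := hy
  ext <;> simp only [wq, mul_r0, mul_r1, mul_a, mul_b0, mul_b1, mul_c, h, k]
  · ring
  · ring
  · ring
  · ring
  · ring

theorem wk_mul (k0 k1 : ZMod 3) {x y : M6} (hx : x ∈ MQ) (hy : y ∈ MQ) : wk k0 k1 (x * y) = wk k0 k1 x * wk k0 k1 y := by
  unfold wk ep
  rw [map_mul, wq_mul (show (be 0 (-k0) (-k1) x).c = 0 from hx) (show (be 0 (-k0) (-k1) y).c = 0 from hy), map_mul]

end M6

open M6

/-- the embedding twisted by `be s k0 k1` -/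
noncomputable def ph (s k0 k1 : ZMod 3) : M6 →* Co0 := (dat.hom.comp io).comp (be s k0 k1)

theorem ph_injective (s k0 k1 : ZMod 3) : Function.Injective (ph s k0 k1) :=
  dat.injective.comp (io_injective.comp (be_injective s k0 k1))

/-- the embedding for `Co₂`, `U₆(2)`, `U₆(2):2` -/
noncomputable abbrev ph1 : M6 →* Co0 := ph 2 2 0

/-- the embedding for `McL`, `McL:2` -/
noncomputable abbrev ph2 : M6 →* Co0 := ph 2 1 1

/-- the word of an element of `M6` in the elements `e 1, …, e 9` of `Co0` -/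
def wd (s k0 k1 : ZMod 3) (x : M6) : List ℕ := wp (io (be s k0 k1 x))

theorem wd_prod (s k0 k1 : ZMod 3) (x : M6) : ((wd s k0 k1 x).map e).prod = ph s k0 k1 x := by
  unfold wd
  rw [wp_prod]
  rfl

theorem wp_pos (p : P) : ∀ i ∈ wp p, i ≠ 0 := by
  intro i hi
  simp only [wp, H956.Co1P.wv, List.mem_append, List.mem_replicate] at hi
  omega

/-- `M` with the new matrix `A` at `0` -/
def MX (A : List (List ℤ)) : ℕ → List (List ℤ)
  | 0 => A
  | i + 1 => M (i + 1)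

/-- `e` with the new element at `0` -/
noncomputable def eX {A : List (List ℤ)} (h : Ok A (tr A)) : ℕ → Co0
  | 0 => mk h
  | i + 1 => e (i + 1)

theorem repX {A : List (List ℤ)} (h : Ok A (tr A)) : ∀ i, Rep (eX h i) (MX A i)
  | 0 => rep_mk h
  | i + 1 => rep (i + 1)

theorem map_eX {A : List (List ℤ)} (h : Ok A (tr A)) {w : List ℕ} (hw : ∀ i ∈ w, i ≠ 0) : w.map (eX h) = w.map e := by
  apply List.map_congr_left
  intro i hi
  obtain ⟨j, rfl⟩ := Nat.exists_eq_succ_of_ne_zero (hw i hi)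
  rfl

/-- the check of the action of the matrix `A` on the generator `rt i 1` -/
def chk (A : List (List ℤ)) (s k0 k1 : ZMod 3) (f : M6 → M6) (i : Fin 6) : Bool :=
  eqB (MX A) (0 :: wd s k0 k1 (rt i 1)) (wd s k0 k1 (f (rt i 1)) ++ [0])

theorem chk_spec {A : List (List ℤ)} (h : Ok A (tr A)) {s k0 k1 : ZMod 3} {f : M6 → M6} {i : Fin 6}
    (hc : chk A s k0 k1 f i = true) :
    ph s k0 k1 (f (rt i 1)) = mk h * ph s k0 k1 (rt i 1) * (mk h)⁻¹ := by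
  have h1 := eq_of_eqB (repX h) hc
  rw [List.map_append, List.prod_append, List.map_cons, List.prod_cons, map_eX h (w := wd s k0 k1 (rt i 1)) (wp_pos _),
    map_eX h (w := wd s k0 k1 (f (rt i 1))) (wp_pos _),
    wd_prod, wd_prod] at h1
  rw [eq_mul_inv_iff_mul_eq]
  have h2 : ([0].map (eX h)).prod = mk h := by simp [eX]
  rw [h2] at h1
  exact h1.symm

/-- the action of `mk h` on a lattice vector -/
theorem act_eq {A : List (List ℤ)} (h : Ok A (tr A)) {v w : leechLattice} {l l' : List ℤ} (hl : l.length ≤ 24)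
    (hv : (v : GolayPt → ℤ) = vec l) (hw : (w : GolayPt → ℤ) = vec l') (hA : apZ A l = l') :
    (mk h).1 v = w := by
  apply Subtype.ext
  rw [hw, ← hA, apZ_eq]
  exact (rep_mk h).apply hl hv

end Cfsg.Agent.H264.U4
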